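import Cfsg.Agent.Lib.InvChar.S3344.Tables

/-!
The four tables have the relations; two of them do not allow a second conjugate in the core.
-/

set_option autoImplicit false
set_option maxRecDepth 100000

namespace CfsgLib.InvChar.ShapeThree

/-- The commutator of two indices is `0` or the central involution. -/
def comOk (mu : Fin 192 → Fin 192 → Fin 192) (p q : Fin 192) : Bool :=
  (mu p q).val == (mu q p).val || (mu p q).val == (mu (mu q p) (gi 4)).val

/-- Whether an index is an involution or trivial, centralising a given one. -/
def invCom (mu : Fin 192 → Fin 192 → Fin 192) (i p : Fin 192) : Bool :=
  (mu p p).val == 0 && (mu p i).val == (mu i p).val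

/-- The commutators of involutions centralising an involution are central, and one is not trivial. -/
def bad (mu : Fin 192 → Fin 192 → Fin 192) : Bool :=
  (List.finRange 192).all fun i =>
    !((mu i i).val == 0) || i.val == 0 || i.val == (gi 4).val ||
      (((List.finRange 192).all fun p => !invCom mu i p ||
          (List.finRange 192).all fun q => !invCom mu i q || comOk mu p q) &&
        ((List.finRange 192).any fun p => invCom mu i p &&
          (List.finRange 192).any fun q => invCom mu i q && !((mu p q).val == (mu q p).val)))

theorem chk_A0 : chk false false AEight.Forms.toTwelve MTwelve.mul = true := by decide +kernel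

theorem chk_B0 : chk true false id AEight.mul = true := by decide +kernel

theorem chk_A1 : chk false true id AEight.Forms.mulA1 = true := by decide +kernel

theorem chk_B1 : chk true true id AEight.Forms.mulB1 = true := by decide +kernel

theorem bad_A1 : bad AEight.Forms.mulA1 = true := by decide +kernel

theorem bad_B1 : bad AEight.Forms.mulB1 = true := by decide +kernel

end CfsgLib.InvChar.ShapeThree
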