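import Cfsg.Agent.Lib.InvChar.S3344.Certs

/-!
The centraliser of the involution is one of the two tables.
-/

set_option autoImplicit false
set_option linter.unusedSectionVars false

open Cfsg

namespace CfsgLib.InvChar.ShapeThree

universe u

variable {G : Type u} [Group G]

/-- Right inverses are unique. -/
def uniq (σ : Fin 192 → Fin 192) (mu : Fin 192 → Fin 192 → Fin 192) : Bool :=
  (List.finRange 192).all fun k =>
    decide (((List.finRange 192).filter fun i => (mu i k).val == (σ ⟨0, by decide⟩).val).length ≤ 1)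

theorem uniq_spec {σ : Fin 192 → Fin 192} {mu : Fin 192 → Fin 192 → Fin 192}
    (h : uniq σ mu = true) (k : Fin 192) {i j : Fin 192} (hi : mu i k = σ ⟨0, by decide⟩)
    (hj : mu j k = σ ⟨0, by decide⟩) : i = j := by
  simp only [uniq, List.all_eq_true, List.mem_finRange, true_implies, decide_eq_true_eq] at h
  have h1 := h k
  set l := (List.finRange 192).filter fun i => (mu i k).val == (σ ⟨0, by decide⟩).val with hl
  have hmi : i ∈ l := by simp [hl, hi]
  have hmj : j ∈ l := by simp [hl, hj]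
  match l, h1, hmi, hmj with
  | [], _, hmi, _ => simp at hmi
  | [u], _, hmi, hmj => exact (List.mem_singleton.1 hmi).trans (List.mem_singleton.1 hmj).symm
  | _ :: _ :: _, h1, _, _ => simp at h1

theorem uniq_A0 : uniq AEight.Forms.toTwelve MTwelve.mul = true := by decide +kernel

theorem uniq_B0 : uniq id AEight.mul = true := by decide +kernel

theorem uniq_A1 : uniq id AEight.Forms.mulA1 = true := by decide +kernel

theorem uniq_B1 : uniq id AEight.Forms.mulB1 = true := by decide +kernel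

section

variable {s : G} {Q : Subgroup G} {x t a b d e : G} (F : Frame s Q x a b d e) (T : Inv s Q x t)
include F

theorem x_not_mem : x ∉ Q := by
  intro hx
  have h1 : x = 1 ∨ x = s := F.base.fpf x hx rfl
  have hfix : cjg x a = a := by
    rcases h1 with e | e
    · simp [e, cjg]
    · exact cjg_fix (by rw [e]; exact F.base.scomm a F.left.amem)
  rw [F.left.xa] at hfix
  have h3 : qv s a b d e (false, true, false, false, false) =
      qv s a b d e (true, false, false, false, false) := by simpa [qv] using hfix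
  exact absurd (congrArg Prod.fst (F.qv_injective h3)) Bool.false_ne_true

theorem xx_not_mem : x * x ∉ Q := fun h => x_not_mem F (by
  have e : (x * x)⁻¹ = x := inv_eq_of_mul_eq_one_right F.base.xxx
  have := inv_mem h
  rwa [e] at this)

include T

theorem nf_eq_one {p : V × Fin 3 × Bool} (h : nf s x t a b d e p = 1) : p = (v0, 0, false) := by
  obtain ⟨w, n, o⟩ := p
  have hmem : ![1, x, x * x] n * (bif o then t else 1) ∈ Q := by
    have e : ![1, x, x * x] n * (bif o then t else 1) = (qv s a b d e w)⁻¹ :=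
      eq_inv_of_mul_eq_one_right (by rw [← mul_assoc]; exact h)
    rw [e]
    exact inv_mem (F.qv_mem w)
  cases o
  · simp only [cond_false, mul_one] at hmem
    fin_cases n
    · simp only [nf, Fin.zero_eta, Matrix.cons_val_zero, mul_one, cond_false] at h
      simp [F.qv_eq_one h, v0]
    · exact absurd hmem (x_not_mem F)
    · exact absurd hmem (xx_not_mem F)
  · exfalso
    set q := ![1, x, x * x] n * t with hq
    have hqQ : q ∈ Q := hmem
    have h2 : cjg q x = x * x := by
      rw [hq, ← cjg_cjg, T.tx]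
      fin_cases n
      · simp [cjg]
      · simp [cjg, mul_assoc]
      · simp [cjg, mul_assoc]
    have h3 : q * cjg x q⁻¹ = x := by
      calc q * cjg x q⁻¹ = cjg q x * x⁻¹ := by simp [cjg, mul_assoc]
        _ = x := by rw [h2]; simp
    exact x_not_mem F (h3 ▸ mul_mem hqQ (F.base.norm _ (inv_mem hqQ)))

theorem exists_nf (hcov : ∀ g, g * s = s * g → ∃ q ∈ Q, g = q ∨ g = q * x ∨ g = q * (x * x) ∨
      g = q * t ∨ g = q * (x * t) ∨ g = q * (x * x * t)) {g : G} (hg : g * s = s * g) :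
    ∃ p, nf s x t a b d e p = g := by
  obtain ⟨q, hq, h⟩ := hcov g hg
  obtain ⟨w, rfl⟩ := F.exists_qv hq
  rcases h with rfl | rfl | rfl | rfl | rfl | rfl
  exacts [⟨(w, 0, false), by simp [nf]⟩, ⟨(w, 1, false), by simp [nf]⟩, ⟨(w, 2, false), by simp [nf]⟩,
    ⟨(w, 0, true), by simp [nf]⟩, ⟨(w, 1, true), by simp [nf, mul_assoc]⟩,
    ⟨(w, 2, true), by simp [nf, mul_assoc]⟩]

end

/-- A table with the relations gives a parametrisation of the centraliser. -/
theorem exists_map {s : G} {Q : Subgroup G} {x t a b d e : G} {sw sq : Bool}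
    (F : Frame s Q x a b d e) (T : Inv s Q x t)
    (hA : if sw then cjg t a = d * s ∧ cjg t b = d * e * s ∧ cjg t d = a * s ∧ cjg t e = a * b * s
      else cjg t a = a * s ∧ cjg t b = a * b * s ∧ cjg t d = d * s ∧ cjg t e = d * e * s)
    (hsq : t * t = bif sq then s else 1)
    (hcov : ∀ g, g * s = s * g → ∃ q ∈ Q, g = q ∨ g = q * x ∨ g = q * (x * x) ∨ g = q * t ∨
      g = q * (x * t) ∨ g = q * (x * x * t))
    {σ : Fin 192 → Fin 192} {mu : Fin 192 → Fin 192 → Fin 192} (hc : chk sw sq σ mu = true)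
    (hu : uniq σ mu = true) :
    ∃ φ : Fin 192 → G, Function.Injective φ ∧ (∀ i j, φ (mu i j) = φ i * φ j) ∧
      φ (σ (gi 4)) = s ∧ (∀ g, g * s = s * g → ∃ i, φ i = g) ∧ ∀ i, φ i * s = s * φ i := by
  simp only [chk, List.all_eq_true, List.mem_finRange, true_implies, Bool.and_eq_true,
    beq_iff_eq, Bool.or_eq_true, bne_iff_ne] at hc
  have hσinj : Function.Injective σ := fun i j h =>
    Fin.ext (((hc i).2 j).resolve_left (fun hne => hne (congrArg Fin.val h)))
  let σe : Fin 192 ≃ Fin 192 :=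
    Equiv.ofBijective σ ⟨hσinj, Finite.injective_iff_surjective.1 hσinj⟩
  let ψ : Fin 192 → G := fun i => nf s x t a b d e (dec i)
  let φ : Fin 192 → G := fun i => ψ (σe.symm i)
  have hφσ : ∀ i, φ (σ i) = ψ i := fun i => by
    show ψ (σe.symm (σe i)) = ψ i
    rw [σe.symm_apply_apply]
  have hstep : ∀ i g, φ (mu i (σ (gi g))) = φ i * gen s x t a b d e g := by
    intro i g
    obtain ⟨i, rfl⟩ := σe.surjective i
    show φ (mu (σ i) (σ (gi g))) = φ (σ i) * _
    rw [Fin.ext ((hc i).1.1.1.1 g), hφσ, hφσ]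
    show nf s x t a b d e (dec (enc (rm sw sq g (dec i)))) = _
    rw [dec_enc, nf_rm F T hA hsq]
  have hmul : ∀ i j, φ (mu (σ i) (σ j)) = φ (σ i) * ((word7 j).map (gen s x t a b d e)).prod := by
    intro i j
    induction hn : j.val using Nat.strong_induction_on generalizing j with
    | _ n ih =>
      rcases word_step j with h | ⟨hlt, hw⟩
      · rw [show j = ⟨0, by decide⟩ from Fin.ext h, Fin.ext (hc i).1.1.2, word7_zero]
        simp
      · have hj : ¬ j.val = 0 := by omega
        rw [Fin.ext (((hc i).1.1.1.2 j).resolve_left hj), hstep, ih _ (hn ▸ hlt) (prev j) rfl, hw,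
          List.map_append, List.prod_append, List.map_cons, List.map_nil, List.prod_cons,
          List.prod_nil, mul_one, mul_assoc]
  have h0 : φ (σ ⟨0, by decide⟩) = 1 := by
    rw [hφσ]
    show nf s x t a b d e (dec ⟨0, by decide⟩) = 1
    simp [dec, nf, qv]
  have hw : ∀ j, φ (σ j) = ((word7 j).map (gen s x t a b d e)).prod := fun j => by
    have h := hmul ⟨0, by decide⟩ j
    rwa [Fin.ext (hc j).1.2, h0, one_mul] at h
  have hmm : ∀ i j, φ (mu i j) = φ i * φ j := by
    intro i j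
    obtain ⟨i, rfl⟩ := σe.surjective i
    obtain ⟨j, rfl⟩ := σe.surjective j
    show φ (mu (σ i) (σ j)) = φ (σ i) * φ (σ j)
    rw [hmul, hw j]
  have hcomm : ∀ i, φ i * s = s * φ i := by
    intro i
    show nf s x t a b d e (dec (σe.symm i)) * s = s * nf s x t a b d e (dec (σe.symm i))
    generalize dec (σe.symm i) = p
    have hq := F.base.scomm _ (F.qv_mem p.1)
    have hx : Commute (![1, x, x * x] p.2.1) s := by
      obtain ⟨_, n, _⟩ := p
      fin_cases n
      exacts [Commute.one_left s, F.base.xs, Commute.mul_left F.base.xs F.base.xs]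
    have ht : Commute (bif p.2.2 then t else 1) s := by
      cases p.2.2
      exacts [Commute.one_left s, T.ts]
    exact (((Commute.symm hq).mul_left hx).mul_left ht).eq
  have hdec_inj : Function.Injective dec := Function.LeftInverse.injective enc_dec
  have hone : ∀ i, φ i = 1 → i = σ ⟨0, by decide⟩ := by
    intro i hi
    obtain ⟨i, rfl⟩ := σe.surjective i
    show σ i = _
    rw [show φ (σe i) = ψ i from hφσ i] at hi
    refine congrArg σ (hdec_inj ?_)
    rw [show dec i = (v0, 0, false) from nf_eq_one F T hi]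
    decide
  have hinj : Function.Injective φ := by
    intro i j h
    obtain ⟨k, hk⟩ : ∃ k, φ k = (φ j)⁻¹ := by
      obtain ⟨j', rfl⟩ := σe.surjective j
      have hs' : φ (σ j') * s = s * φ (σ j') := hcomm _
      obtain ⟨p, hp⟩ := exists_nf F T hcov (g := (φ (σ j'))⁻¹) (Commute.inv_left hs').eq
      refine ⟨σ (enc p), ?_⟩
      rw [hφσ]
      show nf s x t a b d e (dec (enc p)) = _
      rw [dec_enc, hp]
      rfl
    have hj : mu j k = σ ⟨0, by decide⟩ := hone _ (by rw [hmm, hk, mul_inv_cancel])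
    have hi : mu i k = σ ⟨0, by decide⟩ := hone _ (by rw [hmm, hk, h, mul_inv_cancel])
    exact uniq_spec hu k hi hj
  refine ⟨φ, hinj, hmm, ?_, fun g hg => ?_, fun i => ?_⟩
  · rw [hw]
    rw [show word7 (gi 4) = [4] by decide]
    simp [gen]
  · obtain ⟨p, rfl⟩ := exists_nf F T hcov hg
    refine ⟨σ (enc p), ?_⟩
    rw [hφσ]
    show nf s x t a b d e (dec (enc p)) = _
    rw [dec_enc]
  · exact hcomm i

/-- A table with central commutators of involutions does not allow a second conjugate of `s`. -/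
theorem bad_false {s : G} {φ : Fin 192 → G} {mu : Fin 192 → Fin 192 → Fin 192}
    (hinj : Function.Injective φ) (hmm : ∀ i j, φ (mu i j) = φ i * φ j) (hz : φ (gi 4) = s)
    (h0 : φ ⟨0, by decide⟩ = 1) (hsurj : ∀ g, g * s = s * g → ∃ i, φ i = g)
    (hcomm : ∀ i, φ i * s = s * φ i) (hss : s * s = 1) (hs1 : s ≠ 1) (hb : bad mu = true) {g : G}
    (hgc : g * s * g⁻¹ * s = s * (g * s * g⁻¹)) (hne : g * s * g⁻¹ ≠ s) : False := by
  simp only [bad, List.all_eq_true, List.any_eq_true, List.mem_finRange, true_implies, true_and,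
    Bool.or_eq_true, Bool.and_eq_true, Bool.not_eq_true', beq_iff_eq, beq_eq_false_iff_ne] at hb
  have hyy : g * s * g⁻¹ * (g * s * g⁻¹) = 1 := by
    calc g * s * g⁻¹ * (g * s * g⁻¹) = g * (s * s) * g⁻¹ := by group
      _ = 1 := by rw [hss]; group
  obtain ⟨iy, hiy⟩ := hsurj _ hgc
  have hne' : g⁻¹ * s * g ≠ s := fun e => hne (by
    calc g * s * g⁻¹ = g * (g⁻¹ * s * g) * g⁻¹ := by rw [e]
      _ = s := by group)
  have hxc : g⁻¹ * s * g * s = s * (g⁻¹ * s * g) := by
    have h := congrArg (fun u => g⁻¹ * u * g) hgc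
    simpa [mul_assoc] using h.symm
  have hxx : g⁻¹ * s * g * (g⁻¹ * s * g) = 1 := by
    calc g⁻¹ * s * g * (g⁻¹ * s * g) = g⁻¹ * (s * s) * g := by group
      _ = 1 := by rw [hss]; group
  obtain ⟨ix, hix⟩ := hsurj _ hxc
  have inv_idx : ∀ {i : Fin 192} {y : G}, φ i = y → y * y = 1 → y ≠ s → y ≠ 1 →
      (mu i i).val = 0 ∧ i.val ≠ 0 ∧ i.val ≠ (gi 4).val := by
    intro i y hi h1 h2 h3
    refine ⟨congrArg Fin.val (hinj (a₂ := ⟨0, by decide⟩) (by rw [hmm, hi, h1, h0])), ?_, ?_⟩
    · intro e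
      exact h3 (by rw [← hi, show i = ⟨0, by decide⟩ from Fin.ext e, h0])
    · intro e
      exact h2 (by rw [← hi, show i = gi 4 from Fin.ext e, hz])
  have hy1 : g * s * g⁻¹ ≠ 1 := fun e => hs1 (by
    calc s = g⁻¹ * (g * s * g⁻¹) * g := by group
      _ = 1 := by rw [e]; group)
  have hx1 : g⁻¹ * s * g ≠ 1 := fun e => hs1 (by
    calc s = g * (g⁻¹ * s * g) * g⁻¹ := by group
      _ = 1 := by rw [e]; group)
  obtain ⟨hy_sq, hy0, hyz⟩ := inv_idx hiy hyy hne hy1
  obtain ⟨hx_sq, hx0, hxz⟩ := inv_idx hix hxx hne' hx1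
  have hy := hb iy
  simp only [hy_sq, ne_eq, not_true_eq_false, hy0, hyz, false_or, or_false] at hy
  have hx := hb ix
  simp only [hx_sq, ne_eq, not_true_eq_false, hx0, hxz, false_or, or_false] at hx
  obtain ⟨p, hp, q, hq, hpq⟩ := hy.2
  simp only [invCom, Bool.and_eq_true, beq_iff_eq] at hp hq
  -- pull the pair back along `g`
  have pull : ∀ {r : Fin 192}, (mu r r).val = 0 ∧ (mu r iy).val = (mu iy r).val →
      ∃ r', φ r' = g⁻¹ * φ r * g ∧ invCom mu ix r' = true := by
    intro r hr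
    have h1 : φ r * φ r = 1 := by rw [← hmm, show mu r r = ⟨0, by decide⟩ from Fin.ext hr.1, h0]
    have h2 : φ r * (g * s * g⁻¹) = g * s * g⁻¹ * φ r := by
      rw [← hiy, ← hmm, ← hmm, Fin.ext hr.2]
    have h3 : g⁻¹ * φ r * g * s = s * (g⁻¹ * φ r * g) := by
      have h := congrArg (fun u => g⁻¹ * u * g) h2
      simpa [mul_assoc] using h
    obtain ⟨r', hr'⟩ := hsurj _ h3
    refine ⟨r', hr', ?_⟩
    simp only [invCom, Bool.and_eq_true, beq_iff_eq]
    refine ⟨congrArg Fin.val (hinj (a₂ := ⟨0, by decide⟩) ?_), congrArg Fin.val (hinj ?_)⟩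
    · rw [hmm, hr', h0]
      calc g⁻¹ * φ r * g * (g⁻¹ * φ r * g) = g⁻¹ * (φ r * φ r) * g := by group
        _ = 1 := by rw [h1]; group
    · rw [hmm, hmm, hr', hix]
      have h4 : φ r * s = s * φ r := hcomm r
      calc g⁻¹ * φ r * g * (g⁻¹ * s * g) = g⁻¹ * (φ r * s) * g := by group
        _ = g⁻¹ * s * g * (g⁻¹ * φ r * g) := by rw [h4]; group
  obtain ⟨p', hp', hpI⟩ := pull hp
  obtain ⟨q', hq', hqI⟩ := pull hq
  have hc := ((hx.1 p').resolve_left (by simp [hpI]) q').resolve_left (by simp [hqI])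
  -- the commutator of `p` and `q` is `s`, that of the pulled back pair is a conjugate
  have hyc := ((hy.1 p).resolve_left (by simp [invCom, hp]) q).resolve_left (by simp [invCom, hq])
  simp only [comOk, Bool.or_eq_true, beq_iff_eq] at hc hyc
  have hne2 : φ p * φ q ≠ φ q * φ p := fun e =>
    hpq (congrArg Fin.val (hinj (by rw [hmm, hmm, e])))
  have h5 : φ p * φ q = φ q * φ p * s := by
    rcases hyc with e | e
    · exact absurd e hpq
    · rw [← hmm, ← hmm, ← hz, ← hmm, Fin.ext e]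
  have key : φ p' * φ q' = φ q' * φ p' * (g⁻¹ * s * g) := by
    rw [hp', hq']
    calc g⁻¹ * φ p * g * (g⁻¹ * φ q * g) = g⁻¹ * (φ p * φ q) * g := by group
      _ = g⁻¹ * φ q * g * (g⁻¹ * φ p * g) * (g⁻¹ * s * g) := by rw [h5]; group
  rcases hc with e | e
  · refine hne2 ?_
    have h6 : φ p' * φ q' = φ q' * φ p' := by rw [← hmm, ← hmm, Fin.ext e]
    rw [h6] at key
    exact absurd (left_eq_mul.1 key) hx1
  · have h6 : φ p' * φ q' = φ q' * φ p' * s := by rw [← hmm, ← hmm, ← hz, ← hmm, Fin.ext e]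
    rw [h6] at key
    exact hne' (mul_left_cancel key).symm

/-- The centraliser of the involution is the group of a table of type `A0` or `B0`. -/
theorem exists_ctr [Finite G] (s : G) (hs : orderOf s = 2) (L : Subgroup G)
    (hL : L = Subgroup.centralizer ({s} : Set G)) (Q : Subgroup G)
    (hQ : Q = (Cfsg.pCore 2 L).map L.subtype) (hQex : Cfsg.IsExtraspecial 2 Q)
    (hQcard : Nat.card Q = 32) (e : L ⧸ Cfsg.pCore 2 L ≃* Equiv.Perm (Fin 3)) (X : Sylow 3 L)
    (hCQX : Q ⊓ Subgroup.centralizer (((X : Subgroup L).map L.subtype : Subgroup G) : Set G) =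
      Subgroup.zpowers s)
    (hnwc : ∃ g : G, g * s * g⁻¹ ∈ Q ∧ g * s * g⁻¹ ≠ s) :
    Nonempty (MTwelve.Ctr s) ∨ Nonempty (AEight.Ctr s) := by
  obtain ⟨x, t, -, -, ⟨a, b, d, e', F, T, hA⟩, hcov⟩ := exists_setup s hs L hL Q hQ hQex hQcard e X hCQX
  obtain ⟨g, hgQ, hgne⟩ := hnwc
  have hgc : g * s * g⁻¹ * s = s * (g * s * g⁻¹) := (F.base.scomm _ hgQ).symm
  cases hA with
  | fixed h1 h2 h3 h4 =>
    rcases T.tt with htt | htt
    · obtain ⟨φ, hinj, hmm, hz, hsurj, hcomm⟩ := exists_map (sw := false) (sq := false) F T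
        (by simp [h1, h2, h3, h4]) (by simp [htt]) hcov chk_A0 uniq_A0
      exact Or.inl ⟨⟨φ, hinj, hmm,
        by rw [← AEight.Forms.toTwelve_z]; exact hz, hsurj⟩⟩
    · obtain ⟨φ, hinj, hmm, hz, hsurj, hcomm⟩ := exists_map (sw := false) (sq := true) F T
        (by simp [h1, h2, h3, h4]) (by simp [htt]) hcov chk_A1 uniq_A1
      refine (bad_false hinj hmm hz ?_ hsurj hcomm F.base.ss F.base.sne bad_A1 hgc hgne).elim
      have h := hmm ⟨0, by decide⟩ ⟨0, by decide⟩
      rw [show AEight.Forms.mulA1 ⟨0, by decide⟩ ⟨0, by decide⟩ = ⟨0, by decide⟩ by decide +kernel] at h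
      exact left_eq_mul.1 h
  | swapped h1 h2 h3 h4 =>
    rcases T.tt with htt | htt
    · obtain ⟨φ, hinj, hmm, hz, hsurj, hcomm⟩ := exists_map (sw := true) (sq := false) F T
        (by simp [h1, h2, h3, h4]) (by simp [htt]) hcov chk_B0 uniq_B0
      exact Or.inr ⟨⟨φ, hinj, hmm, hz, hsurj⟩⟩
    · obtain ⟨φ, hinj, hmm, hz, hsurj, hcomm⟩ := exists_map (sw := true) (sq := true) F T
        (by simp [h1, h2, h3, h4]) (by simp [htt]) hcov chk_B1 uniq_B1
      refine (bad_false hinj hmm hz ?_ hsurj hcomm F.base.ss F.base.sne bad_B1 hgc hgne).elim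
      have h := hmm ⟨0, by decide⟩ ⟨0, by decide⟩
      rw [show AEight.Forms.mulB1 ⟨0, by decide⟩ ⟨0, by decide⟩ = ⟨0, by decide⟩ by decide +kernel] at h
      exact left_eq_mul.1 h

end CfsgLib.InvChar.ShapeThree
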