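import Cfsg.Prelude.Def_Solvable
import Cfsg.Prelude.Def_Transfer
import Cfsg.Agent.Lib.Cores.PCore
import Cfsg.Agent.Lib.PGroups.Extraspecial
import Mathlib

/-!
The centraliser of an involution whose largest normal two-subgroup is extraspecial of order `32`
with quotient of degree three and fixed-point-free elements of order three: generators and
relations.
-/

set_option autoImplicit false
set_option linter.unusedSectionVars false

open Cfsg

namespace CfsgLib.InvChar.ShapeThree

universe u

variable {G : Type u} [Group G]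

/-- Conjugation. -/
def cjg (g h : G) : G := g * h * g⁻¹

theorem cjg_mul (g h k : G) : cjg g (h * k) = cjg g h * cjg g k := by simp [cjg, mul_assoc]

theorem cjg_cjg (g g' h : G) : cjg g (cjg g' h) = cjg (g * g') h := by simp [cjg, mul_assoc]

theorem cjg_fix {g h : G} (e : g * h = h * g) : cjg g h = h := by simp [cjg, e]

theorem comm_of_cjg {g h : G} (e : cjg g h = h) : g * h = h * g := by
  calc g * h = cjg g h * g := by simp [cjg]
    _ = h * g := by rw [e]

/-- The ambient hypotheses, on elements. -/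
structure Base (s : G) (Q : Subgroup G) (x : G) : Prop where
  ss : s * s = 1
  sne : s ≠ 1
  smem : s ∈ Q
  scomm : ∀ q ∈ Q, s * q = q * s
  sq : ∀ q ∈ Q, q * q = 1 ∨ q * q = s
  comm : ∀ p ∈ Q, ∀ q ∈ Q, q * p = p * q ∨ q * p = p * q * s
  cen : ∀ q ∈ Q, (∀ p ∈ Q, q * p = p * q) → q = 1 ∨ q = s
  nonab : ∃ p ∈ Q, ∃ q ∈ Q, p * q ≠ q * p
  xxx : x * x * x = 1
  xs : x * s = s * x
  norm : ∀ q ∈ Q, cjg x q ∈ Q
  fpf : ∀ q ∈ Q, x * q = q * x → q = 1 ∨ q = s
  card : Nat.card Q = 32

/-- A quaternion pair permuted by `x`. -/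
structure Pair (s : G) (Q : Subgroup G) (x a b : G) : Prop where
  amem : a ∈ Q
  bmem : b ∈ Q
  aa : a * a = s
  bb : b * b = s
  ba : b * a = a * b * s
  xa : cjg x a = b
  xb : cjg x b = a * b

namespace Base

variable {s : G} {Q : Subgroup G} {x : G} (h : Base s Q x)
include h

theorem sms (g : G) : s * (s * g) = g := by rw [← mul_assoc, h.ss, one_mul]

theorem cjg_s : cjg x s = s := cjg_fix h.xs

/-- Every element of order four is the first member of a pair, after a change of sign. -/
theorem exists_pair {a : G} (ha : a ∈ Q) (haa : a * a = s) :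
    ∃ a' b : G, (a' = a ∨ a' = a * s) ∧ Pair s Q x a' b := by
  have hs' : ∀ q ∈ Q, q * s = s * q := fun q hq => (h.scomm q hq).symm
  set b := cjg x a with hb
  set c := cjg x b with hc
  have hbQ : b ∈ Q := h.norm a ha
  have hcQ : c ∈ Q := h.norm b hbQ
  have hbb : b * b = s := by rw [hb, ← cjg_mul, haa, h.cjg_s]
  have hcc : c * c = s := by rw [hc, ← cjg_mul, hbb, h.cjg_s]
  have hca : cjg x c = a := by
    rw [hc, hb, cjg_cjg, cjg_cjg, h.xxx]
    simp [cjg]
  have hw : cjg x (a * b * c) = b * c * a := by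
    rw [cjg_mul, cjg_mul, ← hb, ← hc, hca]
  have hwQ : a * b * c ∈ Q := mul_mem (mul_mem ha hbQ) hcQ
  have hfix : cjg x (a * b * c) = a * b * c := by
    rcases h.comm a ha _ (mul_mem hbQ hcQ) with e | e
    · rw [hw, e, mul_assoc]
    · have h1 : cjg x (a * b * c) = a * b * c * s := by rw [hw, e, mul_assoc a b c]
      have h2 : cjg x (cjg x (cjg x (a * b * c))) = a * b * c * s := by
        rw [h1, cjg_mul, h.cjg_s, h1, cjg_mul, cjg_mul, h.cjg_s, h1]
        simp [mul_assoc, h.ss]
      rw [cjg_cjg, cjg_cjg, h.xxx] at h2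
      simp [cjg, h.sne] at h2
  have hor : c = (a * b)⁻¹ ∨ c = (a * b)⁻¹ * s := by
    rcases h.fpf _ hwQ (comm_of_cjg hfix) with e | e
    · exact Or.inl (eq_inv_of_mul_eq_one_right e)
    · exact Or.inr (by rw [← e]; group)
  have habab : a * b * (a * b) = s := by
    have hi : (a * b)⁻¹ * (a * b)⁻¹ = s := by
      rcases hor with e | e
      · rw [← e, hcc]
      · have hm : (a * b)⁻¹ ∈ Q := inv_mem (mul_mem ha hbQ)
        rw [← hcc, e, mul_assoc _ s, ← mul_assoc s, h.scomm _ hm]
        simp [mul_assoc, h.ss]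
    have := congrArg (·⁻¹) hi
    simp only [mul_inv_rev, inv_inv] at this
    rw [this]
    exact inv_eq_of_mul_eq_one_right h.ss
  have hinv : (a * b)⁻¹ = a * b * s :=
    inv_eq_of_mul_eq_one_right (by rw [← mul_assoc, habab, h.ss])
  have hba : b * a = a * b * s := by
    rcases h.comm a ha b hbQ with e | e
    · exfalso
      refine h.sne ?_
      calc s = a * (b * a) * b := by rw [← habab]; simp [mul_assoc]
        _ = a * a * (b * b) := by rw [e]; simp [mul_assoc]
        _ = 1 := by rw [haa, hbb, h.ss]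
    · exact e
  rcases hor with e | e
  · refine ⟨a * s, b * s, Or.inr rfl, mul_mem ha h.smem, mul_mem hbQ h.smem, ?_, ?_, ?_, ?_, ?_⟩
    · rw [show a * s * (a * s) = a * (s * a) * s by simp [mul_assoc], h.scomm a ha]
      simp [mul_assoc, h.ss, haa]
    · rw [show b * s * (b * s) = b * (s * b) * s by simp [mul_assoc], h.scomm b hbQ]
      simp [mul_assoc, h.ss, hbb]
    · rw [show b * s * (a * s) = b * (s * a) * s by simp [mul_assoc], h.scomm a ha,
        show b * (a * s) * s = b * a * (s * s) by simp [mul_assoc], hba,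
        show a * s * (b * s) = a * (s * b) * s by simp [mul_assoc], h.scomm b hbQ]
      simp [mul_assoc, h.ss]
    · rw [cjg_mul, h.cjg_s]
    · rw [cjg_mul, h.cjg_s, ← hc, e, hinv, show a * s * (b * s) = a * (s * b) * s by simp [mul_assoc],
        h.scomm b hbQ]
      simp [mul_assoc, h.ss]
  · refine ⟨a, b, Or.inl rfl, ha, hbQ, haa, hbb, hba, rfl, ?_⟩
    rw [← hc, e, hinv]
    simp [mul_assoc, h.ss]

end Base

/-- Generators and relations of `Q` with the action of `x`. -/
structure Frame (s : G) (Q : Subgroup G) (x a b d e : G) : Prop where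
  base : Base s Q x
  left : Pair s Q x a b
  right : Pair s Q x d e
  da : d * a = a * d
  db : d * b = b * d
  ea : e * a = a * e
  eb : e * b = b * e

theorem Base.exists_frame {s : G} {Q : Subgroup G} {x : G} (h : Base s Q x) :
    ∃ a b d e, Frame s Q x a b d e := by
  obtain ⟨a0, ha0, hsq⟩ : ∃ a ∈ Q, a * a = s := by
    by_contra hne
    push Not at hne
    obtain ⟨p, hp, q, hq, hpq⟩ := h.nonab
    have h1 : ∀ r ∈ Q, r⁻¹ = r := fun r hr =>
      inv_eq_of_mul_eq_one_right ((h.sq r hr).resolve_right (hne r hr))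
    refine hpq ?_
    rw [← h1 _ (mul_mem hp hq), mul_inv_rev, h1 p hp, h1 q hq]
  obtain ⟨a, b, -, hab⟩ := h.exists_pair ha0 hsq
  have ha := hab.amem
  have hb := hab.bmem
  -- commutation with `a` and `b`
  have hdec : ∀ q ∈ Q, ∃ u, (u = 1 ∨ u = a ∨ u = b ∨ u = a * b) ∧
      (u * q) * a = a * (u * q) ∧ (u * q) * b = b * (u * q) := by
    intro q hq
    have hsr : ∀ g ∈ Q, g * s = s * g := fun g hg => (h.scomm g hg).symm
    have hab' : a * b = b * a * s := by rw [hab.ba]; simp [mul_assoc, h.ss]
    rcases h.comm a ha q hq with e1 | e1 <;> rcases h.comm b hb q hq with e2 | e2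
    · exact ⟨1, Or.inl rfl, by simpa using e1, by simpa using e2⟩
    · refine ⟨a, Or.inr (Or.inl rfl), by rw [mul_assoc, e1], ?_⟩
      rw [mul_assoc, e2, show a * (b * q * s) = (a * b) * (q * s) by simp [mul_assoc], hab',
        show b * a * s * (q * s) = b * a * (s * q) * s by simp [mul_assoc], h.scomm q hq]
      simp [mul_assoc, h.ss]
    · refine ⟨b, Or.inr (Or.inr (Or.inl rfl)), ?_, by rw [mul_assoc, e2]⟩
      rw [mul_assoc, e1, show b * (a * q * s) = (b * a) * (q * s) by simp [mul_assoc], hab.ba,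
        show a * b * s * (q * s) = a * b * (s * q) * s by simp [mul_assoc], h.scomm q hq]
      simp [mul_assoc, h.ss]
    · refine ⟨a * b, Or.inr (Or.inr (Or.inr rfl)), ?_, ?_⟩
      · rw [mul_assoc, e1, show a * b * (a * q * s) = a * (b * a) * (q * s) by simp [mul_assoc],
          hab.ba, show a * (a * b * s) * (q * s) = a * a * b * (s * q) * s by simp [mul_assoc],
          h.scomm q hq, show a * (a * b * q) = a * a * (b * q) by simp [mul_assoc]]
        simp [mul_assoc, h.ss]
      · rw [mul_assoc, e2, show a * b * (b * q * s) = (a * b) * (b * (q * s)) by simp [mul_assoc]]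
        conv_lhs => rw [hab']
        rw [show b * a * s * (b * (q * s)) = b * a * (s * b) * q * s by simp [mul_assoc],
          h.scomm b hb, show b * a * (b * s) * q * s = b * a * b * (s * q) * s by simp [mul_assoc],
          h.scomm q hq]
        simp [mul_assoc, h.ss]
  obtain ⟨d0, hd0, hd0a, hd0b, hd0s⟩ : ∃ d ∈ Q, d * a = a * d ∧ d * b = b * d ∧ d * d = s := by
    by_contra hne
    push Not at hne
    have hinvol : ∀ v ∈ Q, v * a = a * v → v * b = b * v → v⁻¹ = v := fun v hv h1 h2 =>
      inv_eq_of_mul_eq_one_right ((h.sq v hv).resolve_right (hne v hv h1 h2))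
    -- the common centraliser of `a` and `b` would be central
    have hcen : ∀ v ∈ Q, v * a = a * v → v * b = b * v → v = 1 ∨ v = s := by
      intro v hv h1 h2
      refine h.cen v hv fun p hp => ?_
      obtain ⟨u, hu, hp1, hp2⟩ := hdec p hp
      have huQ : u ∈ Q := by
        rcases hu with rfl | rfl | rfl | rfl
        exacts [one_mem _, ha, hb, mul_mem ha hb]
      have hvu : v * u = u * v := by
        rcases hu with rfl | rfl | rfl | rfl
        · simp
        · exact h1
        · exact h2
        · rw [← mul_assoc, h1, mul_assoc, h2, ← mul_assoc]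
      have hw : u * p ∈ Q := mul_mem huQ hp
      have hvw : v * (u * p) = u * p * v := by
        have e3 := hinvol _ (mul_mem hv hw) (by rw [mul_assoc, hp1, ← mul_assoc, h1, mul_assoc])
          (by rw [mul_assoc, hp2, ← mul_assoc, h2, mul_assoc])
        rw [mul_inv_rev, hinvol v hv h1 h2, hinvol _ hw hp1 hp2] at e3
        exact e3.symm
      have e4 : u * (v * p) = u * (p * v) := by
        rw [← mul_assoc, ← hvu, mul_assoc, hvw, mul_assoc]
      exact mul_left_cancel e4
    -- so `Q` would be too small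
    let f : Fin 4 × Bool → G := fun w => (![1, a⁻¹, b⁻¹, (a * b)⁻¹] w.1) * bif w.2 then s else 1
    have hcov : ∀ g ∈ Q, ∃ w, f w = g := by
      intro g hg
      obtain ⟨u, hu, hp1, hp2⟩ := hdec g hg
      have huQ : u ∈ Q := by
        rcases hu with rfl | rfl | rfl | rfl
        exacts [one_mem _, ha, hb, mul_mem ha hb]
      have hg' : g = u⁻¹ * 1 ∨ g = u⁻¹ * s := by
        rcases hcen _ (mul_mem huQ hg) hp1 hp2 with e | e
        · exact Or.inl (by rw [← e]; group)
        · exact Or.inr (by rw [← e]; group)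
      rcases hu with rfl | rfl | rfl | rfl <;> rcases hg' with rfl | rfl
      exacts [⟨(0, false), by simp [f]⟩, ⟨(0, true), by simp [f]⟩, ⟨(1, false), by simp [f]⟩,
        ⟨(1, true), by simp [f]⟩, ⟨(2, false), by simp [f]⟩, ⟨(2, true), by simp [f]⟩,
        ⟨(3, false), by simp [f]⟩, ⟨(3, true), by simp [f]⟩]
    choose g hg using hcov
    have hle := Nat.card_le_card_of_injective (fun q : Q => g q.1 q.2) fun p q hpq =>
      Subtype.ext (by rw [← hg p.1 p.2, ← hg q.1 q.2, show g p.1 p.2 = g q.1 q.2 from hpq])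
    simp [h.card] at hle
  obtain ⟨d, e, hd, hde⟩ := h.exists_pair hd0 hd0s
  have hda : d * a = a * d ∧ d * b = b * d := by
    rcases hd with rfl | rfl
    · exact ⟨hd0a, hd0b⟩
    · constructor
      · rw [mul_assoc, h.scomm a ha, ← mul_assoc, hd0a, mul_assoc]
      · rw [mul_assoc, h.scomm b hb, ← mul_assoc, hd0b, mul_assoc]
  have key : ∀ {p q : G}, p * q = q * p → cjg x p * cjg x q = cjg x q * cjg x p := fun hpq => by
    rw [← cjg_mul, hpq, cjg_mul]
  have heb : e * b = b * e := by
    have := key hda.1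
    rwa [hde.xa, hab.xa] at this
  have heab : e * (a * b) = a * b * e := by
    have := key hda.2
    rwa [hde.xa, hab.xb] at this
  refine ⟨a, b, d, e, h, hab, hde, hda.1, hda.2, ?_, heb⟩
  refine mul_right_cancel (b := b) ?_
  rw [mul_assoc, heab, mul_assoc, mul_assoc, heb]

/-- The normal form in `Q`. -/
def qv (s a b d e : G) (w : Bool × Bool × Bool × Bool × Bool) : G :=
  (bif w.1 then a else 1) * (bif w.2.1 then b else 1) * (bif w.2.2.1 then d else 1) *
    (bif w.2.2.2.1 then e else 1) * (bif w.2.2.2.2 then s else 1)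

/-- Right multiplication by a generator in the normal form. -/
def qr : Fin 5 → Bool × Bool × Bool × Bool × Bool → Bool × Bool × Bool × Bool × Bool
  | 0, (i, j, k, l, m) => (!i, j, k, l, xor m (xor i j))
  | 1, (i, j, k, l, m) => (i, !j, k, l, xor m j)
  | 2, (i, j, k, l, m) => (i, j, !k, l, xor m (xor k l))
  | 3, (i, j, k, l, m) => (i, j, k, !l, xor m l)
  | 4, (i, j, k, l, m) => (i, j, k, l, !m)

/-- The word of a normal form. -/
def word : Bool × Bool × Bool × Bool × Bool → List (Fin 5)
  | (i, j, k, l, m) => (bif i then [0] else []) ++ (bif j then [1] else []) ++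
      (bif k then [2] else []) ++ (bif l then [3] else []) ++ (bif m then [4] else [])

/-- Multiplication of normal forms. -/
def mm (w v : Bool × Bool × Bool × Bool × Bool) : Bool × Bool × Bool × Bool × Bool :=
  (word v).foldl (fun w g => qr g w) w

theorem qr_cen_check : ∀ w : Bool × Bool × Bool × Bool × Bool,
    w = (false, false, false, false, false) ∨ w = (false, false, false, false, true) ∨
      ∃ g : Fin 5, qr g w = qr 4 (mm (qr g (false, false, false, false, false)) w) := by
  decide +kernel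

theorem mm_div_check : ∀ w v : Bool × Bool × Bool × Bool × Bool, ∃ u, mm v u = w := by
  decide +kernel

namespace Frame

variable {s : G} {Q : Subgroup G} {x a b d e : G} (F : Frame s Q x a b d e)
include F

theorem qr_spec (g : Fin 5) (w : Bool × Bool × Bool × Bool × Bool) :
    qv s a b d e (qr g w) = qv s a b d e w * (![a, b, d, e, s] g) := by
  have l := F.left
  have r := F.right
  have hs : ∀ q ∈ Q, s * q = q * s := F.base.scomm
  have sa := hs a l.amem
  have sb := hs b l.bmem
  have sd := hs d r.amem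
  have se := hs e r.bmem
  have p : ∀ {u v w : G}, u * v = w → ∀ g, u * (v * g) = w * g := fun h g => by rw [← mul_assoc, h]
  obtain ⟨i, j, k, l', m⟩ := w
  fin_cases g <;> cases i <;> cases j <;> cases k <;> cases l' <;> cases m <;>
    simp [qv, qr, mul_assoc, sa, p sa, sb, p sb, sd, p sd, se, p se, l.aa, p l.aa, l.bb, p l.bb,
      r.aa, p r.aa, r.bb, p r.bb, l.ba, p l.ba, r.ba, p r.ba, F.da, p F.da, F.db, p F.db, F.ea,
      p F.ea, F.eb, p F.eb, F.base.ss, F.base.sms]

theorem qv_mem (w : Bool × Bool × Bool × Bool × Bool) : qv s a b d e w ∈ Q := by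
  obtain ⟨i, j, k, l, m⟩ := w
  unfold qv
  refine mul_mem (mul_mem (mul_mem (mul_mem ?_ ?_) ?_) ?_) ?_
  · cases i; exacts [one_mem _, F.left.amem]
  · cases j; exacts [one_mem _, F.left.bmem]
  · cases k; exacts [one_mem _, F.right.amem]
  · cases l; exacts [one_mem _, F.right.bmem]
  · cases m; exacts [one_mem _, F.base.smem]

theorem qv_foldl (l : List (Fin 5)) : ∀ w, qv s a b d e (l.foldl (fun w g => qr g w) w) =
    qv s a b d e w * (l.map ![a, b, d, e, s]).prod := by
  induction l with
  | nil => simp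
  | cons g l ih => intro w; rw [List.foldl_cons, ih, F.qr_spec, List.map_cons, List.prod_cons, mul_assoc]

theorem qv_mm (w v : Bool × Bool × Bool × Bool × Bool) :
    qv s a b d e (mm w v) = qv s a b d e w * qv s a b d e v := by
  rw [mm, F.qv_foldl]
  obtain ⟨i, j, k, l, m⟩ := v
  cases i <;> cases j <;> cases k <;> cases l <;> cases m <;> simp [qv, word, mul_assoc]

theorem qv_eq_one {w : Bool × Bool × Bool × Bool × Bool} (h : qv s a b d e w = 1) :
    w = (false, false, false, false, false) := by
  by_contra hw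
  rcases qr_cen_check w with h0 | h1 | ⟨g, hg⟩
  · exact hw h0
  · rw [h1] at h
    simp [qv, F.base.sne] at h
  · have h2 := congrArg (qv s a b d e) hg
    rw [F.qr_spec, F.qr_spec, F.qv_mm, F.qr_spec, h] at h2
    have h3 : qv s a b d e (false, false, false, false, false) = 1 := by simp [qv]
    rw [h3] at h2
    simp [F.base.sne] at h2

theorem qv_injective : Function.Injective (qv s a b d e) := by
  intro w v h
  obtain ⟨u, hu⟩ := mm_div_check w v
  rw [← hu, F.qv_mm] at h
  have := F.qv_eq_one (mul_left_cancel (h.trans (mul_one _).symm))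
  rw [← hu, this]
  simp [mm, word]

/-- Every element of `Q` has a normal form. -/
theorem exists_qv {q : G} (hq : q ∈ Q) : ∃ w, qv s a b d e w = q := by
  haveI : Finite Q := Nat.finite_of_card_ne_zero (by rw [F.base.card]; omega)
  have hb : Function.Bijective fun w => (⟨qv s a b d e w, F.qv_mem w⟩ : Q) :=
    Function.Injective.bijective_of_nat_card_le
      (fun w v h => F.qv_injective (congrArg Subtype.val h))
      (by rw [F.base.card]; simp [Nat.card_eq_fintype_card])
  obtain ⟨w, hw⟩ := hb.2 ⟨q, hq⟩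
  exact ⟨w, congrArg Subtype.val hw⟩

theorem square_cases {q : G} (hq : q ∈ Q) (h : q * q = s) :
    (∃ m : Bool, q = a * (bif m then s else 1) ∨ q = b * (bif m then s else 1) ∨
        q = a * b * (bif m then s else 1)) ∨
      ∃ m : Bool, q = d * (bif m then s else 1) ∨ q = e * (bif m then s else 1) ∨
        q = d * e * (bif m then s else 1) := by
  obtain ⟨⟨i, j, k, l, m⟩, rfl⟩ := F.exists_qv hq
  have h2 : qv s a b d e (mm (i, j, k, l, m) (i, j, k, l, m)) =
      qv s a b d e (false, false, false, false, true) := by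
    rw [F.qv_mm, h]; simp [qv]
  have h3 := F.qv_injective h2
  cases i <;> cases j <;> cases k <;> cases l <;>
    first
    | (refine Or.inl ⟨m, ?_⟩; simp [qv, mul_assoc]; done)
    | (refine Or.inr ⟨m, ?_⟩; simp [qv, mul_assoc]; done)
    | exact absurd h3 (by cases m <;> decide)

theorem shift_right : Frame s Q x a b e (d * e) := by
  have r := F.right
  refine ⟨F.base, F.left, ⟨r.bmem, mul_mem r.amem r.bmem, r.bb, ?_, ?_, r.xb, ?_⟩, F.ea, F.eb, ?_, ?_⟩
  · have h : cjg x e * cjg x e = s := by rw [← cjg_mul, r.bb, F.base.cjg_s]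
    rwa [r.xb] at h
  · rw [show d * e * e = d * (e * e) by simp [mul_assoc], r.bb, ← mul_assoc e, r.ba,
      show d * e * s * e * s = d * e * (s * e) * s by simp [mul_assoc], F.base.scomm e r.bmem,
      show d * e * (e * s) * s = d * (e * e) * (s * s) by simp [mul_assoc], r.bb, F.base.ss]
    simp
  · rw [cjg_mul, r.xa, r.xb]
  · rw [mul_assoc, F.ea, ← mul_assoc, F.da, mul_assoc]
  · rw [mul_assoc, F.eb, ← mul_assoc, F.db, mul_assoc]

theorem swap : Frame s Q x d e a b := by
  exact ⟨F.base, F.right, F.left, F.da.symm, F.ea.symm, F.db.symm, F.eb.symm⟩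

theorem shift_left : Frame s Q x b (a * b) d e := F.swap.shift_right.swap

theorem mul_shift : b * (a * b) = a := by
  have l := F.left
  rw [← mul_assoc, l.ba, show a * b * s * b = a * b * (s * b) by simp [mul_assoc],
    F.base.scomm b l.bmem, show a * b * (b * s) = a * (b * b) * s by simp [mul_assoc], l.bb,
    mul_assoc, F.base.ss, mul_one]

end Frame

/-- An element inverting `x`. -/
structure Inv (s : G) (Q : Subgroup G) (x t : G) : Prop where
  tx : cjg t x = x * x
  tt : t * t = 1 ∨ t * t = s
  ts : t * s = s * t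
  tnorm : ∀ q ∈ Q, cjg t q ∈ Q

namespace Inv

variable {s : G} {Q : Subgroup G} {x t : G} (T : Inv s Q x t)
include T

theorem cjg_s : cjg t s = s := cjg_fix T.ts

theorem push (h : G) : cjg t (cjg x h) = cjg x (cjg x (cjg t h)) := by
  rw [cjg_cjg, cjg_cjg, cjg_cjg]
  congr 1
  rw [← T.tx]
  simp [cjg]

/-- A fixed axis determines the action on its pair. -/
theorem fixed_axis {p q d e : G} (F : Frame s Q x p q d e) (h : cjg t p = p ∨ cjg t p = p * s) :
    cjg t p = p * s ∧ cjg t q = p * q * s := by
  have l := F.left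
  obtain ⟨f, hf⟩ : ∃ f : Bool, cjg t p = p * (bif f then s else 1) := by
    rcases h with e | e
    · exact ⟨false, by simp [e]⟩
    · exact ⟨true, by simp [e]⟩
  have hfix : cjg x (bif f then s else 1) = (bif f then s else 1) := by
    cases f
    · simp [cjg]
    · exact F.base.cjg_s
  have hq : cjg t q = p * q * (bif f then s else 1) := by
    rw [← l.xa, T.push, hf, cjg_mul, hfix, l.xa, cjg_mul, hfix, l.xb]
  have h1 : cjg t (p * q) = q * (bif f then s else 1) := by
    rw [← l.xb, T.push, hq, cjg_mul, hfix, cjg_mul, hfix, cjg_mul, l.xa, l.xb, F.mul_shift, l.xa]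
  rw [cjg_mul, hf, hq] at h1
  cases f
  · simp only [cond_false, mul_one] at h1
    rw [← mul_assoc, l.aa] at h1
    exact absurd (mul_eq_right.1 h1) F.base.sne
  · exact ⟨hf, hq⟩

end Inv

/-- The relations of the centraliser, the pairs being fixed or exchanged. -/
inductive Act (s t a b d e : G) : Prop
  | fixed : cjg t a = a * s → cjg t b = a * b * s → cjg t d = d * s → cjg t e = d * e * s →
      Act s t a b d e
  | swapped : cjg t a = d * s → cjg t b = d * e * s → cjg t d = a * s → cjg t e = a * b * s →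
      Act s t a b d e

theorem Inv.exists_fixed {s : G} {Q : Subgroup G} {x t : G} (T : Inv s Q x t) {a b d e : G}
    (F : Frame s Q x a b d e) {m : Bool}
    (h : cjg t a = a * (bif m then s else 1) ∨ cjg t a = b * (bif m then s else 1) ∨
      cjg t a = a * b * (bif m then s else 1)) :
    ∃ p q, Frame s Q x p q d e ∧ cjg t p = p * s ∧ cjg t q = p * q * s := by
  have hfix : cjg x (bif m then s else 1) = (bif m then s else 1) := by
    cases m
    · simp [cjg]
    · exact F.base.cjg_s
  have fin : ∀ {p q}, Frame s Q x p q d e → cjg t p = p * (bif m then s else 1) →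
      ∃ p q, Frame s Q x p q d e ∧ cjg t p = p * s ∧ cjg t q = p * q * s := fun hF hp => by
    refine ⟨_, _, hF, T.fixed_axis hF ?_⟩
    cases m
    · left; simpa using hp
    · right; simpa using hp
  have l := F.left
  rcases h with h | h | h
  · exact fin F h
  · refine fin F.shift_left.shift_left ?_
    rw [← l.xb, T.push, ← l.xa, T.push, h, cjg_mul, hfix, cjg_mul, hfix, cjg_mul, hfix,
      cjg_mul, hfix, l.xb, cjg_mul x a b, l.xa, l.xb, F.mul_shift, l.xa, l.xb]
  · refine fin F.shift_left ?_
    rw [← l.xa, T.push, h, cjg_mul, hfix, cjg_mul, hfix, cjg_mul x a b, l.xa, l.xb, F.mul_shift,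
      l.xa]

theorem Inv.exists_act {s : G} {Q : Subgroup G} {x t : G} (T : Inv s Q x t) {a b d e : G}
    (F : Frame s Q x a b d e) : ∃ a b d e, Frame s Q x a b d e ∧ Act s t a b d e := by
  have hsq : ∀ {g : G}, g * g = s → cjg t g * cjg t g = s := fun hg => by
    rw [← cjg_mul, hg, T.cjg_s]
  rcases F.square_cases (T.tnorm a F.left.amem) (hsq F.left.aa) with ⟨m, h⟩ | ⟨m, h⟩
  · obtain ⟨p, q, F', hp, hq⟩ := T.exists_fixed F h
    rcases F'.square_cases (T.tnorm d F'.right.amem) (hsq F'.right.aa) with ⟨m', h'⟩ | ⟨m', h'⟩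
    · exfalso
      -- the image of `d` centralises that of `p`
      have hc : cjg t d * (p * s) = p * s * cjg t d := by
        rw [← hp, ← cjg_mul, ← cjg_mul, F'.da]
      rcases h' with h' | h' | h'
      · have : cjg t d = cjg t (p * (bif m' then 1 else s)) := by
          rw [cjg_mul, hp, h']
          cases m'
          · simp [T.cjg_s, mul_assoc, F.base.ss]
          · simp [cjg]
        have h2 : d = p * (bif m' then 1 else s) := by simpa [cjg] using this
        have h3 : qv s p q d e (false, false, true, false, false) =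
            qv s p q d e (true, false, false, false, !m') := by
          cases m' <;> simp_all [qv]
        exact absurd (congrArg Prod.fst (F'.qv_injective h3)) Bool.false_ne_true
      all_goals rw [h'] at hc
      · have h4 : qv s p q d e (mm (false, true, false, false, m') (true, false, false, false, true)) =
            qv s p q d e (mm (true, false, false, false, true) (false, true, false, false, m')) := by
          rw [F'.qv_mm, F'.qv_mm]
          cases m' <;> simpa [qv] using hc
        exact absurd (F'.qv_injective h4) (by cases m' <;> decide)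
      · have h4 : qv s p q d e (mm (true, true, false, false, m') (true, false, false, false, true)) =
            qv s p q d e (mm (true, false, false, false, true) (true, true, false, false, m')) := by
          rw [F'.qv_mm, F'.qv_mm]
          cases m' <;> simpa [qv] using hc
        exact absurd (F'.qv_injective h4) (by cases m' <;> decide)
    · obtain ⟨p', q', F'', hp', hq'⟩ := T.exists_fixed F'.swap h'
      exact ⟨p, q, p', q', F''.swap, .fixed hp hq hp' hq'⟩
  · -- the pairs are exchanged
    have hfix : cjg x (bif m then s else 1) = (bif m then s else 1) := by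
      cases m
      · simp [cjg]
      · exact F.base.cjg_s
    obtain ⟨p, q, F', m', hp⟩ : ∃ p q, Frame s Q x a b p q ∧ ∃ m : Bool,
        cjg t a = p * (bif m then s else 1) := by
      rcases h with h | h | h
      exacts [⟨d, e, F, m, h⟩, ⟨e, d * e, F.shift_right, m, h⟩,
        ⟨_, _, F.shift_right.shift_right, m, h⟩]
    -- the sign is forced
    have hp : cjg t a = p * s := by
      cases m'
      · exfalso
        have hp0 : cjg t a = p := by simpa using hp
        have e1 : cjg t b = p * q := by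
          rw [← F'.left.xa, T.push, hp0, F'.right.xa, F'.right.xb]
        have e2 : cjg t (a * b) = q := by
          rw [← F'.left.xb, T.push, e1, cjg_mul x p q, F'.right.xa, F'.right.xb, F'.swap.mul_shift,
            F'.right.xa]
        rw [cjg_mul, hp0, e1, ← mul_assoc, F'.right.aa] at e2
        exact F.base.sne (mul_eq_right.1 e2)
      · simpa using hp
    have l := F'.left
    have r := F'.right
    have h1 : cjg t b = p * q * s := by
      rw [← l.xa, T.push, hp, cjg_mul, F.base.cjg_s, r.xa, cjg_mul, F.base.cjg_s, r.xb]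
    have htt : ∀ g ∈ Q, cjg t (cjg t g) = g := fun g hg => by
      rw [cjg_cjg]
      rcases T.tt with e | e <;> rw [e]
      · simp [cjg]
      · exact cjg_fix (F.base.scomm g hg)
    have h2 : cjg t p = a * s := by
      have e1 := htt a l.amem
      rw [hp, cjg_mul, T.cjg_s] at e1
      calc cjg t p = cjg t p * s * s := by rw [mul_assoc, F.base.ss, mul_one]
        _ = a * s := by rw [e1]
    refine ⟨a, b, p, q, F', .swapped hp h1 h2 ?_⟩
    rw [← r.xa, T.push, h2, cjg_mul, F.base.cjg_s, l.xa, cjg_mul, F.base.cjg_s, l.xb]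

theorem perm_three_check : ∀ p q : Equiv.Perm (Fin 3), p * p * p = 1 → p ≠ 1 → q * q = 1 →
    q * p * q⁻¹ = p * p → ∀ r : Equiv.Perm (Fin 3),
      r = 1 ∨ r = p ∨ r = p * p ∨ r = q ∨ r = p * q ∨ r = p * p * q := by
  decide +kernel

theorem perm_three_inverts : ∀ p q : Equiv.Perm (Fin 3), p * p * p = 1 → p ≠ 1 →
    Equiv.Perm.sign q ≠ 1 → q * q = 1 ∧ q * p * q⁻¹ = p * p ∧ p * p ≠ p := by
  decide +kernel

/-- The hypotheses give a frame, an inverting element, and the six cosets of `Q`. -/
theorem exists_setup [Finite G] (s : G) (hs : orderOf s = 2) (L : Subgroup G)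
    (hL : L = Subgroup.centralizer ({s} : Set G)) (Q : Subgroup G)
    (hQ : Q = (Cfsg.pCore 2 L).map L.subtype) (hQex : Cfsg.IsExtraspecial 2 Q)
    (hQcard : Nat.card Q = 32) (e : L ⧸ Cfsg.pCore 2 L ≃* Equiv.Perm (Fin 3)) (X : Sylow 3 L)
    (hCQX : Q ⊓ Subgroup.centralizer (((X : Subgroup L).map L.subtype : Subgroup G) : Set G) =
      Subgroup.zpowers s) :
    ∃ x t, x * s = s * x ∧ t * s = s * t ∧
      (∃ a b d e, Frame s Q x a b d e ∧ Inv s Q x t ∧ Act s t a b d e) ∧
      ∀ g, g * s = s * g → ∃ q ∈ Q, g = q ∨ g = q * x ∨ g = q * (x * x) ∨ g = q * t ∨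
        g = q * (x * t) ∨ g = q * (x * x * t) := by
  haveI : Fact (Nat.Prime 3) := ⟨Nat.prime_three⟩
  haveI : Fact (Nat.Prime 2) := ⟨Nat.prime_two⟩
  set K := Cfsg.pCore 2 L with hKdef
  have hLs : ∀ g, g ∈ L ↔ g * s = s * g := fun g => by
    rw [hL]; exact Subgroup.mem_centralizer_singleton_iff
  have hQL : ∀ q, q ∈ Q ↔ ∃ h : q ∈ L, (⟨q, h⟩ : L) ∈ K := fun q => by
    rw [hQ, Subgroup.mem_map]
    exact ⟨fun ⟨y, hy, e⟩ => e ▸ ⟨y.2, hy⟩, fun ⟨h, hy⟩ => ⟨_, hy, rfl⟩⟩
  have hsQ : s ∈ Q := (inf_le_left : _ ≤ Q) (hCQX.symm.le (Subgroup.mem_zpowers s))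
  have hsc : ∀ q ∈ Q, s * q = q * s := fun q hq => ((hLs q).1 ((hQL q).1 hq).1).symm
  have hnorm : ∀ g, g * s = s * g → ∀ q ∈ Q, cjg g q ∈ Q := by
    intro g hg q hq
    obtain ⟨hqL, hqK⟩ := (hQL q).1 hq
    have hgL := (hLs g).2 hg
    refine (hQL _).2 ⟨mul_mem (mul_mem hgL hqL) (inv_mem hgL), ?_⟩
    exact (inferInstance : K.Normal).conj_mem _ hqK ⟨g, hgL⟩
  set π := (e : L ⧸ K →* Equiv.Perm (Fin 3)).comp (QuotientGroup.mk' K) with hπ
  have hker : ∀ y : L, π y = 1 ↔ (y : G) ∈ Q := fun y => by
    simp only [hπ, MonoidHom.comp_apply, MonoidHom.coe_coe, QuotientGroup.mk'_apply,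
      EmbeddingLike.map_eq_one_iff, QuotientGroup.eq_one_iff]
    exact ⟨fun h => (hQL _).2 ⟨y.2, h⟩, fun h => ((hQL _).1 h).2⟩
  have hsurj : Function.Surjective π := e.surjective.comp (QuotientGroup.mk'_surjective K)
  have hQp := hQex.1.1
  -- the Sylow subgroup has order three
  have hXinj : Function.Injective (π.comp (X : Subgroup L).subtype) := by
    refine (injective_iff_map_eq_one _).2 fun y hy => ?_
    have hyQ : ((y : L) : G) ∈ Q := (hker _).1 hy
    obtain ⟨i, hi⟩ := X.isPGroup' y
    obtain ⟨j, hj⟩ := hQp ⟨_, hyQ⟩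
    have h3 : orderOf y ∣ 3 ^ i := orderOf_dvd_of_pow_eq_one hi
    have h2 : orderOf y ∣ 2 ^ j := by
      refine orderOf_dvd_of_pow_eq_one (Subtype.ext (Subtype.ext ?_))
      simpa using congrArg Subtype.val hj
    exact orderOf_eq_one_iff.1 (Nat.eq_one_of_dvd_coprimes (Nat.Coprime.pow i j (by norm_num)) h3 h2)
  have hX3 : Nat.card (X : Subgroup L) = 3 := by
    obtain ⟨n, hn⟩ := IsPGroup.iff_card.1 X.isPGroup'
    have h6 : Nat.card (X : Subgroup L) ∣ 6 := by
      have h := Subgroup.card_dvd_of_injective _ hXinj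
      rwa [Nat.card_perm, Nat.card_eq_fintype_card (α := Fin 3), Fintype.card_fin] at h
    have h3L : 3 ∣ Nat.card L := by
      have h := Subgroup.card_dvd_of_surjective _ hsurj
      rw [Nat.card_perm, Nat.card_eq_fintype_card (α := Fin 3), Fintype.card_fin] at h
      exact (show (3 : ℕ) ∣ Nat.factorial 3 by decide).trans h
    have h3X := X.dvd_card_of_dvd_card h3L
    rw [hn] at h6 h3X ⊢
    match n with
    | 0 => simp at h3X
    | 1 => rfl
    | m + 2 =>
      have : 9 ∣ 6 := (pow_dvd_pow 3 (show 2 ≤ m + 2 by omega)).trans h6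
      norm_num at this
  obtain ⟨x0, hx0⟩ := (isCyclic_of_prime_card hX3 : IsCyclic (X : Subgroup L)).exists_generator
  set x : G := ((x0 : L) : G) with hx
  have hxs : x * s = s * x := (hLs x).1 (x0 : L).2
  have hxp : x0 * x0 * x0 = 1 := by
    have h := pow_card_eq_one' (G := (X : Subgroup L)) (x := x0)
    rwa [hX3, pow_succ, pow_two] at h
  have hxxx : x * x * x = 1 := by
    simpa using congrArg (fun u : (X : Subgroup L) => ((u : L) : G)) hxp
  have hπx : π x0 ≠ 1 := by
    intro h
    have h1 : x0 = 1 := hXinj (by simpa using h)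
    have htop : ∀ y : (X : Subgroup L), y = 1 := fun y => by
      obtain ⟨k, rfl⟩ := Subgroup.mem_zpowers_iff.1 (hx0 y)
      rw [h1, one_zpow]
    haveI : Subsingleton (X : Subgroup L) := ⟨fun u v => (htop u).trans (htop v).symm⟩
    rw [Nat.card_of_subsingleton (1 : (X : Subgroup L))] at hX3
    omega
  have hπ3 : π x0 * π x0 * π x0 = 1 := by
    rw [← map_mul, ← map_mul, ← map_one π]
    exact congrArg π (congrArg Subtype.val hxp)
  have hfpf : ∀ q ∈ Q, x * q = q * x → q = 1 ∨ q = s := by
    intro q hq hc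
    have hmem : q ∈ Subgroup.zpowers s := by
      refine hCQX.le ⟨hq, Subgroup.mem_centralizer_iff.2 ?_⟩
      rintro _ ⟨y, hy, rfl⟩
      obtain ⟨k, hk⟩ := Subgroup.mem_zpowers_iff.1 (hx0 ⟨y, hy⟩)
      have h1 : Commute (x ^ k) q := Commute.zpow_left hc k
      have h2 : ((y : L) : G) = x ^ k := by
        have h3 := congrArg (fun u : (X : Subgroup L) => ((u : L) : G)) hk
        simpa using h3.symm
      show (y : G) * q = q * y
      rw [h2]
      exact h1
    obtain ⟨k, rfl⟩ := Subgroup.mem_zpowers_iff.1 hmem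
    rw [← zpow_mod_orderOf, hs]
    rcases Int.emod_two_eq_zero_or_one k with h | h <;> simp [show ((2 : ℕ) : ℤ) = 2 from rfl, h]
  have hss : s * s = 1 := by rw [← pow_two, ← hs, pow_orderOf_eq_one]
  have hsne : s ≠ 1 := fun h => by rw [h, orderOf_one] at hs; omega
  have hZ : ∀ q : Q, q ∈ Subgroup.center Q → (q : G) = 1 ∨ (q : G) = s := by
    intro q hq
    obtain ⟨w, hw, huniq⟩ := (Nat.card_eq_two_iff' (1 : Subgroup.center Q)).1 hQex.2
    by_cases h1 : q = 1
    · left; rw [h1]; rfl
    have e1 := huniq ⟨q, hq⟩ fun h => h1 (congrArg Subtype.val h)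
    have e2 := huniq ⟨⟨s, hsQ⟩, Subgroup.mem_center_iff.2 fun y => Subtype.ext (hsc y y.2).symm⟩
      fun h => hsne (congrArg (fun u : Subgroup.center Q => ((u : Q) : G)) h)
    exact Or.inr (congrArg (fun u : Subgroup.center Q => ((u : Q) : G)) (e1.trans e2.symm))
  have hB : Base s Q x := by
    refine ⟨hss, hsne, hsQ, hsc, fun q hq => ?_, fun p hp q hq => ?_, fun q hq h => ?_, ?_, hxxx, hxs,
      hnorm x hxs, hfpf, hQcard⟩
    · have := hZ _ (PGroups.IsExtraspecial.pow_mem_center hQex ⟨q, hq⟩)
      simpa [pow_two] using this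
    · rcases hZ _ (PGroups.IsExtraspecial.commutator_mem_center hQex ⟨q, hq⟩ ⟨p, hp⟩) with h | h
      · left
        simp only [commutatorElement_def, Subgroup.coe_mul, InvMemClass.coe_inv] at h
        calc q * p = q * p * q⁻¹ * p⁻¹ * (p * q) := by group
          _ = p * q := by rw [h, one_mul]
      · right
        simp only [commutatorElement_def, Subgroup.coe_mul, InvMemClass.coe_inv] at h
        calc q * p = q * p * q⁻¹ * p⁻¹ * (p * q) := by group
          _ = p * q * s := by rw [h, hsc _ (mul_mem hp hq)]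
    · exact hZ ⟨q, hq⟩ (Subgroup.mem_center_iff.2 fun y => Subtype.ext (h y y.2).symm)
    · obtain ⟨p, q, h⟩ := PGroups.IsExtraspecial.exists_not_commute hQex
      exact ⟨p, p.2, q, q.2, fun e => h (Subtype.ext e)⟩
  -- an element inverting `x`
  set N := (alternatingGroup (Fin 3)).comap π with hN
  have hXN : (X : Subgroup L) ≤ N := by
    intro y hy
    obtain ⟨k, hk⟩ := Subgroup.mem_zpowers_iff.1 (hx0 ⟨y, hy⟩)
    have : y = (x0 : L) ^ k := by simpa using (congrArg Subtype.val hk).symm
    rw [this, Subgroup.mem_comap, map_zpow]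
    refine zpow_mem ?_ k
    rw [Equiv.Perm.mem_alternatingGroup]
    have h := congrArg Equiv.Perm.sign hπ3
    rcases Int.units_eq_one_or (Equiv.Perm.sign (π x0)) with h' | h'
    · exact h'
    · rw [map_mul, map_mul, h', map_one] at h
      exact absurd h (by decide)
  obtain ⟨n, hn, hnN⟩ : ∃ n : L, n ∈ Subgroup.normalizer ((X : Subgroup L) : Set L) ∧ n ∉ N := by
    by_contra hne
    push Not at hne
    have htop := Sylow.normalizer_sup_eq_top' X hXN
    rw [sup_eq_right.2 hne] at htop
    obtain ⟨y, hy⟩ := hsurj (Equiv.swap 0 1)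
    have : y ∈ N := htop ▸ Subgroup.mem_top y
    rw [Subgroup.mem_comap, hy, Equiv.Perm.mem_alternatingGroup] at this
    exact absurd this (by decide)
  obtain ⟨hq2, hqp, hpp⟩ := perm_three_inverts _ (π n) hπ3 hπx fun h =>
    hnN (Equiv.Perm.mem_alternatingGroup.2 h)
  have hnx : n * (x0 : L) * n⁻¹ = (x0 : L) * x0 := by
    have hmem : n * (x0 : L) * n⁻¹ ∈ (X : Subgroup L) :=
      (Subgroup.mem_normalizer_iff.1 hn _).1 x0.2
    have h : (⟨_, hmem⟩ : (X : Subgroup L)) = x0 * x0 := hXinj (by
      simp only [MonoidHom.comp_apply, Subgroup.subtype_apply, Subgroup.coe_mul, map_mul, map_inv]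
      exact hqp)
    exact congrArg Subtype.val h
  set t : G := (n : G) with ht
  have hts : t * s = s * t := (hLs t).1 n.2
  have htx : cjg t x = x * x := congrArg Subtype.val hnx
  have httx : cjg (t * t) x = x := by
    rw [← cjg_cjg, htx, cjg_mul, htx, show x * x * (x * x) = x * x * x * x by simp [mul_assoc],
      hxxx, one_mul]
  have hT : Inv s Q x t := by
    refine ⟨htx, ?_, hts, hnorm t hts⟩
    have htQ : ((n * n : L) : G) ∈ Q := (hker _).1 (by rw [map_mul, hq2])
    exact hfpf _ htQ (comm_of_cjg httx).symm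
  obtain ⟨a, b, d, e', hF⟩ := hB.exists_frame
  obtain ⟨a, b, d, e', hF, hA⟩ := hT.exists_act hF
  refine ⟨x, t, hxs, hts, ⟨a, b, d, e', hF, hT, hA⟩, fun g hg => ?_⟩
  set y : L := ⟨g, (hLs g).2 hg⟩
  have key : ∀ r : L, π y = π r → ∃ q ∈ Q, g = q * r := fun r hr => by
    refine ⟨((y * r⁻¹ : L) : G), (hker _).1 (by rw [map_mul, map_inv, hr, mul_inv_cancel]), ?_⟩
    simp [y]
  rcases perm_three_check _ _ hπ3 hπx hq2 hqp (π y) with h | h | h | h | h | h
  · obtain ⟨q, hq, e⟩ := key 1 (by rw [h, map_one])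
    exact ⟨q, hq, Or.inl (by simpa using e)⟩
  · obtain ⟨q, hq, e⟩ := key x0 h
    exact ⟨q, hq, Or.inr (Or.inl e)⟩
  · obtain ⟨q, hq, e⟩ := key (x0 * x0 : L) (by rw [map_mul]; exact h)
    exact ⟨q, hq, Or.inr (Or.inr (Or.inl e))⟩
  · obtain ⟨q, hq, e⟩ := key n h
    exact ⟨q, hq, Or.inr (Or.inr (Or.inr (Or.inl e)))⟩
  · obtain ⟨q, hq, e⟩ := key ((x0 : L) * n) (by rw [map_mul]; exact h)
    exact ⟨q, hq, Or.inr (Or.inr (Or.inr (Or.inr (Or.inl e))))⟩
  · obtain ⟨q, hq, e⟩ := key ((x0 : L) * x0 * n) (by rw [map_mul, map_mul]; exact h)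
    exact ⟨q, hq, Or.inr (Or.inr (Or.inr (Or.inr (Or.inr e))))⟩

end CfsgLib.InvChar.ShapeThree
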