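import Cfsg.Agent.Lib.InvChar.S3344.Shape
import Cfsg.Agent.Lib.InvChar.AEight.Forms
import Cfsg.Agent.Lib.InvChar.AEight.Setting
import Cfsg.Agent.Lib.InvChar.MTwelve.Setting

/-!
The centraliser in normal form and its four tables.
-/

set_option autoImplicit false
set_option linter.unusedSectionVars false
set_option maxRecDepth 100000

namespace CfsgLib.InvChar.ShapeThree

universe u

/-- Normal forms in `Q`. -/
abbrev V := Bool × Bool × Bool × Bool × Bool

/-- The trivial normal form. -/
def v0 : V := (false, false, false, false, false)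

/-- The images of the generators of `Q` under conjugation by `x`. -/
def imgX : Fin 5 → V :=
  ![(false, true, false, false, false), (true, true, false, false, false),
    (false, false, false, true, false), (false, false, true, true, false),
    (false, false, false, false, true)]

/-- The images of the generators of `Q` under conjugation by `t`. -/
def imgT (sw : Bool) : Fin 5 → V :=
  bif sw then ![(false, false, true, false, true), (false, false, true, true, true),
    (true, false, false, false, true), (true, true, false, false, true),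
    (false, false, false, false, true)]
  else ![(true, false, false, false, true), (true, true, false, false, true),
    (false, false, true, false, true), (false, false, true, true, true),
    (false, false, false, false, true)]

/-- The extension to normal forms. -/
def ap (img : Fin 5 → V) (v : V) : V := (word v).foldl (fun u g => mm u (img g)) v0

/-- The image of a generator under conjugation by `x ^ n * t ^ o`. -/
def imgXT (sw : Bool) (n : Fin 3) (o : Bool) (g : Fin 5) : V :=
  let v := bif o then imgT sw g else ap id' (qr g v0)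
  match n with
  | 0 => v
  | 1 => ap imgX v
  | 2 => ap imgX (ap imgX v)
where
  /-- The identity on generators. -/
  id' (g : Fin 5) : V := qr g v0

/-- Decoding an index. -/
def dec (i : Fin 192) : V × Fin 3 × Bool :=
  ((i.val / 96 % 2 == 1, i.val / 48 % 2 == 1, i.val / 24 % 2 == 1, i.val / 12 % 2 == 1,
    i.val / 6 % 2 == 1), ⟨i.val / 2 % 3, Nat.mod_lt _ (by decide)⟩, i.val % 2 == 1)

/-- Encoding a normal form. -/
def enc : V × Fin 3 × Bool → Fin 192
  | ((i, j, k, l, m), n, o) => ⟨(((((((bif i then 1 else 0) * 2 + (bif j then 1 else 0)) * 2 +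
      (bif k then 1 else 0)) * 2 + (bif l then 1 else 0)) * 2 + (bif m then 1 else 0)) * 3 + n.val) * 2 +
      (bif o then 1 else 0)) % 192, Nat.mod_lt _ (by decide)⟩

/-- Right multiplication by a generator. -/
def rm (sw sq : Bool) (g : Fin 7) : V × Fin 3 × Bool → V × Fin 3 × Bool
  | (w, n, o) => if h : g.val < 5 then (mm w (imgXT sw n o ⟨g.val, h⟩), n, o)
      else if g.val = 5 then (w, bif o then n + 2 else n + 1, o)
      else (bif o then (bif sq then qr 4 w else w) else w, n, !o)

/-- The generators as indices. -/
def gi : Fin 7 → Fin 192 := ![⟨96, by decide⟩, ⟨48, by decide⟩, ⟨24, by decide⟩, ⟨12, by decide⟩,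
  ⟨6, by decide⟩, ⟨2, by decide⟩, ⟨1, by decide⟩]

/-- The word of an index. -/
def word7 (i : Fin 192) : List (Fin 7) :=
  match dec i with
  | (w, n, o) => (word w).map (Fin.castLE (by decide)) ++ List.replicate n.val 5 ++
      bif o then [6] else []

/-- The last generator of the word of an index. -/
def lastGen (j : Fin 192) : Fin 7 :=
  if j.val % 2 != 0 then 6 else if j.val % 6 != 0 then 5 else if j.val % 12 != 0 then 4
  else if j.val % 24 != 0 then 3 else if j.val % 48 != 0 then 2 else if j.val % 96 != 0 then 1 else 0

/-- The index of the word without its last generator. -/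
def prev (j : Fin 192) : Fin 192 := ⟨(j.val - (gi (lastGen j)).val) % 192, Nat.mod_lt _ (by decide)⟩

theorem word_step : ∀ j : Fin 192, j.val = 0 ∨
    ((prev j).val < j.val ∧ word7 j = word7 (prev j) ++ [lastGen j]) := by
  decide +kernel

theorem word7_zero : word7 ⟨0, by decide⟩ = [] := by decide +kernel

/-- A table with the index map `σ` has the given relations. -/
def chk (sw sq : Bool) (σ : Fin 192 → Fin 192) (mu : Fin 192 → Fin 192 → Fin 192) : Bool :=
  (List.finRange 192).all fun i =>
    ((List.finRange 7).all fun g => (mu (σ i) (σ (gi g))).val == (σ (enc (rm sw sq g (dec i)))).val) &&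
    ((List.finRange 192).all fun j =>
      j.val == 0 || (mu (σ i) (σ j)).val == (mu (mu (σ i) (σ (prev j))) (σ (gi (lastGen j)))).val) &&
    ((mu (σ i) (σ ⟨0, by decide⟩)).val == (σ i).val) &&
    ((mu (σ ⟨0, by decide⟩) (σ i)).val == (σ i).val) &&
    ((List.finRange 192).all fun j => (σ i).val != (σ j).val || i.val == j.val)

theorem enc_dec : ∀ i, enc (dec i) = i := by decide +kernel

theorem dec_enc : ∀ p : V × Fin 3 × Bool, dec (enc p) = p := by decide +kernel

variable {G : Type u} [Group G]

/-- The normal form. -/
def nf (s x t a b d e : G) (p : V × Fin 3 × Bool) : G :=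
  qv s a b d e p.1 * ![1, x, x * x] p.2.1 * bif p.2.2 then t else 1

/-- The generators. -/
def gen (s x t a b d e : G) : Fin 7 → G := ![a, b, d, e, s, x, t]

section

variable {s : G} {Q : Subgroup G} {x t a b d e : G} (F : Frame s Q x a b d e) (T : Inv s Q x t)
  {sw sq : Bool}
include F

theorem qv_ap {c : G → G} (hc : ∀ g h, c (g * h) = c g * c h) {img : Fin 5 → V}
    (himg : ∀ g, qv s a b d e (img g) = c (![a, b, d, e, s] g)) (v : V) :
    qv s a b d e (ap img v) = c (qv s a b d e v) := by
  have hc1 : c 1 = 1 := mul_eq_left.1 ((hc 1 1).symm.trans (by rw [mul_one]))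
  have key : ∀ (l : List (Fin 5)) (u : V), qv s a b d e (l.foldl (fun u g => mm u (img g)) u) =
      qv s a b d e u * c ((l.map ![a, b, d, e, s]).prod) := by
    intro l
    induction l with
    | nil => intro u; simp [hc1]
    | cons g l ih =>
      intro u
      rw [List.foldl_cons, ih, F.qv_mm, himg, List.map_cons, List.prod_cons, hc, mul_assoc]
  rw [ap, key, show qv s a b d e v0 = 1 by simp [qv, v0], one_mul]
  congr 1
  obtain ⟨i, j, k, l, m⟩ := v
  cases i <;> cases j <;> cases k <;> cases l <;> cases m <;> simp [qv, word, mul_assoc]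

theorem qv_imgX (g : Fin 5) : qv s a b d e (imgX g) = cjg x (![a, b, d, e, s] g) := by
  fin_cases g <;> simp [imgX, qv, F.left.xa, F.left.xb, F.right.xa, F.right.xb, F.base.cjg_s]

include T

theorem qv_imgT (hA : if sw then cjg t a = d * s ∧ cjg t b = d * e * s ∧ cjg t d = a * s ∧
      cjg t e = a * b * s
    else cjg t a = a * s ∧ cjg t b = a * b * s ∧ cjg t d = d * s ∧ cjg t e = d * e * s)
    (g : Fin 5) : qv s a b d e (imgT sw g) = cjg t (![a, b, d, e, s] g) := by
  cases sw <;> simp only [Bool.false_eq_true, if_false, if_true] at hA <;>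
    obtain ⟨h1, h2, h3, h4⟩ := hA <;>
    fin_cases g <;> simp [imgT, qv, h1, h2, h3, h4, T.cjg_s]

theorem nf_rm (hA : if sw then cjg t a = d * s ∧ cjg t b = d * e * s ∧ cjg t d = a * s ∧
      cjg t e = a * b * s
    else cjg t a = a * s ∧ cjg t b = a * b * s ∧ cjg t d = d * s ∧ cjg t e = d * e * s)
    (hsq : t * t = bif sq then s else 1) (g : Fin 7) (p : V × Fin 3 × Bool) :
    nf s x t a b d e (rm sw sq g p) = nf s x t a b d e p * gen s x t a b d e g := by
  obtain ⟨w, n, o⟩ := p
  have hxs : x * s = s * x := F.base.xs
  have hxxs : x * x * s = s * (x * x) := by rw [mul_assoc, hxs, ← mul_assoc, hxs, mul_assoc]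
  have htx : t * x = x * x * t := by rw [← T.tx]; simp [cjg]
  have hxxx : x * (x * x) = 1 := by rw [← mul_assoc, F.base.xxx]
  by_cases h : g.val < 5
  · set g5 : Fin 5 := ⟨g.val, h⟩ with hg5
    have hgen : gen s x t a b d e g = ![a, b, d, e, s] g5 := by
      have key : ∀ g' : Fin 5, gen s x t a b d e (Fin.castLE (by decide) g') = ![a, b, d, e, s] g' :=
        fun g' => by fin_cases g' <;> rfl
      exact key g5
    have himg : qv s a b d e (imgXT sw n o g5) = cjg (![1, x, x * x] n * bif o then t else 1)
        (![a, b, d, e, s] g5) := by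
      have h0 : qv s a b d e (bif o then imgT sw g5 else ap imgXT.id' (qr g5 v0)) =
          cjg (bif o then t else 1) (![a, b, d, e, s] g5) := by
        cases o
        · have hid : ∀ g', qv s a b d e (imgXT.id' g') = id (![a, b, d, e, s] g') := fun g' => by
            rw [imgXT.id', F.qr_spec]; simp [qv, v0]
          simp only [cond_false]
          rw [qv_ap F (c := id) (fun _ _ => rfl) hid, F.qr_spec]
          simp [qv, v0, cjg]
        · simp only [cond_true]
          exact qv_imgT F T hA g5
      rw [← cjg_cjg, ← h0]
      unfold imgXT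
      fin_cases n
      · simp [cjg]
      · simp only [qv_ap F (cjg_mul x) (qv_imgX F)]
        simp
      · simp only [qv_ap F (cjg_mul x) (qv_imgX F)]
        simp [cjg_cjg]
    simp only [rm, h, ↓reduceDIte, nf, F.qv_mm, ← hg5, himg, hgen, cjg]
    simp [mul_assoc]
  · obtain ⟨gv, hg⟩ := g
    simp only at h
    have hgv : gv = 5 ∨ gv = 6 := by omega
    rcases hgv with rfl | rfl
    · simp only [rm, nf, gen]
      cases o <;> fin_cases n <;> simp [mul_assoc, hxxx, htx, F.base.xxx] <;>
        simp [← mul_assoc, F.base.xxx]
    · simp only [rm, nf, gen]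
      have hm : qv s a b d e (qr 4 w) = qv s a b d e w * s := by rw [F.qr_spec]; rfl
      cases o
      · simp
      · cases sq <;> fin_cases n <;> simp [mul_assoc, hsq, hm, hxs, hxxs] <;>
          simp [← mul_assoc, hxs]

end

end CfsgLib.InvChar.ShapeThree
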